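import Mathlib
import Cfsg.Agent.Lib.Helper65.S4415.ExtDefs

/-!
# S4415 [EXT], sub-package [X-N]: the elements of `N` are `L_p R_γ` with `p, γ ∈ Q8`.
-/

set_option autoImplicit false

namespace Cfsg.Agent.Lib.Helper24.S4415

open Cfsg.Agent.Lib.Helper78.S4415 Cfsg.Agent.Lib.Helper65.S4415

universe u v

theorem xn_ext {a b : H} (h1 : a.re = b.re) (h2 : a.imI = b.imI) (h3 : a.imJ = b.imJ)
    (h4 : a.imK = b.imK) : a = b := Quaternion.ext (a := a) (b := b) h1 h2 h3 h4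

theorem xn_qk_inv : (-(qi * qj)) * (qi * qj) = (1 : H) := by
  apply xn_ext <;>
  simp [Quaternion.re_mul, Quaternion.imI_mul, Quaternion.imJ_mul, Quaternion.imK_mul] <;>
  simp [qi, qj] <;> rfl

theorem xn_qk : qk = qi * qj := by
  apply xn_ext <;>
  simp [Quaternion.re_mul, Quaternion.imI_mul, Quaternion.imJ_mul, Quaternion.imK_mul] <;>
  simp [qi, qj, qk]

theorem xn_qi_inv : (-qi) * qi = (1 : H) := by
  apply xn_ext <;>
  simp [Quaternion.re_mul, Quaternion.imI_mul, Quaternion.imJ_mul, Quaternion.imK_mul] <;>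
  simp [qi] <;> rfl

theorem xn_qj_inv : (-qj) * qj = (1 : H) := by
  apply xn_ext <;>
  simp [Quaternion.re_mul, Quaternion.imI_mul, Quaternion.imJ_mul, Quaternion.imK_mul] <;>
  simp [qj] <;> rfl

/-- [X-N] -/
theorem pkgXN : PkgXN.{u, v} := by
  intro hNorm hFin G _ _ V _ _ _ ρ R b Q N z x y φ hC hB n hn
  obtain ⟨hzN, hz1, hzneg, hsq, hcomm, hcen, hmove⟩ := hC.extra
  have hmul : ∀ g h : G, ∀ v : V, ρ (g * h) v = ρ g (ρ h v) := fun g h v => by
    rw [map_mul]; rfl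
  have hone : ∀ v : V, ρ 1 v = v := fun v => by rw [map_one]; rfl
  -- Step 1/2: (T3) and `Q8 α`
  have key : ∃ α γ : H, Quaternion.normSq γ ≠ 0 ∧ LR ρ φ n α γ ∧ Q8 α := by
    let T : H →ₗ[ZMod 3] H :=
      (φ : V →ₗ[ZMod 3] H) ∘ₗ (ρ n) ∘ₗ (φ.symm : H →ₗ[ZMod 3] V)
    let T' : H →ₗ[ZMod 3] H :=
      (φ : V →ₗ[ZMod 3] H) ∘ₗ (ρ n⁻¹) ∘ₗ (φ.symm : H →ₗ[ZMod 3] V)
    have hT : ∀ h, T h = φ (ρ n (φ.symm h)) := fun h => rfl
    have hT' : ∀ h, T' h = φ (ρ n⁻¹ (φ.symm h)) := fun h => rfl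
    have h1 : ∀ h, T (T' h) = h := by
      intro h
      rw [hT, hT', LinearEquiv.symm_apply_apply, ← hmul, mul_inv_cancel, hone,
        LinearEquiv.apply_symm_apply]
    have h2 : ∀ h, T' (T h) = h := by
      intro h
      rw [hT, hT', LinearEquiv.symm_apply_apply, ← hmul, inv_mul_cancel, hone,
        LinearEquiv.apply_symm_apply]
    have hpx : ∃ p : H, (p = qi ∨ p = -qi) ∧ ∀ h, T (qi * h) = p * T h := by
      rcases hcomm n hn x hC.xN with h | h
      · refine ⟨qi, Or.inl rfl, fun w => ?_⟩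
        obtain ⟨v, rfl⟩ := φ.surjective w
        rw [hT, hT, ← hC.mx v, LinearEquiv.symm_apply_apply, LinearEquiv.symm_apply_apply,
          ← hmul, h, hmul, hC.mx]
      · refine ⟨-qi, Or.inr rfl, fun w => ?_⟩
        obtain ⟨v, rfl⟩ := φ.surjective w
        rw [hT, hT, ← hC.mx v, LinearEquiv.symm_apply_apply, LinearEquiv.symm_apply_apply,
          ← hmul, h, mul_assoc, hmul, hmul, hzneg, map_neg, hC.mx, neg_mul]
    have hpy : ∃ p : H, (p = qj ∨ p = -qj) ∧ ∀ h, T (qj * h) = p * T h := by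
      rcases hcomm n hn y hC.yN with h | h
      · refine ⟨qj, Or.inl rfl, fun w => ?_⟩
        obtain ⟨v, rfl⟩ := φ.surjective w
        rw [hT, hT, ← hC.my v, LinearEquiv.symm_apply_apply, LinearEquiv.symm_apply_apply,
          ← hmul, h, hmul, hC.my]
      · refine ⟨-qj, Or.inr rfl, fun w => ?_⟩
        obtain ⟨v, rfl⟩ := φ.surjective w
        rw [hT, hT, ← hC.my v, LinearEquiv.symm_apply_apply, LinearEquiv.symm_apply_apply,
          ← hmul, h, mul_assoc, hmul, hmul, hzneg, map_neg, hC.my, neg_mul]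
    obtain ⟨p, hp, hpT⟩ := hpx
    obtain ⟨p', hp', hpT'⟩ := hpy
    have hQp : Q8 p := by
      rcases hp with rfl | rfl
      · exact Or.inr (Or.inr (Or.inl rfl))
      · exact Or.inr (Or.inr (Or.inr (Or.inl rfl)))
    have hQp' : Q8 p' := by
      rcases hp' with rfl | rfl
      · exact Or.inr (Or.inr (Or.inr (Or.inr (Or.inl rfl))))
      · exact Or.inr (Or.inr (Or.inr (Or.inr (Or.inr (Or.inl rfl)))))
    obtain ⟨α, γ, hα, hγ, hTαγ⟩ := hNorm T T' p p' h1 h2 hQp hQp' hpT hpT'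
    obtain ⟨γ', hγ', -⟩ := hFin.unit γ hγ
    have cancel : ∀ q r : H, T (q * 1) = r * T 1 → α * q = r * α := by
      intro q r h
      rw [hTαγ, hTαγ] at h
      calc α * q = α * (q * 1) * γ * γ' := by rw [mul_one, mul_assoc, hγ', mul_one]
        _ = r * (α * 1 * γ) * γ' := by rw [h]
        _ = r * α := by rw [mul_one, mul_assoc, mul_assoc, hγ', mul_one]
    refine ⟨α, γ, hγ, ?_, ?_⟩
    · intro v
      have := hTαγ (φ v)
      rw [hT, LinearEquiv.symm_apply_apply] at this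
      exact this
    · refine hFin.q8_of_comm α hα ?_ ?_
      · have := cancel qi p (hpT 1)
        rcases hp with rfl | rfl
        · exact Or.inl this
        · right; rw [this, neg_mul]
      · have := cancel qj p' (hpT' 1)
        rcases hp' with rfl | rfl
        · exact Or.inl this
        · right; rw [this, neg_mul]
  obtain ⟨α, γ, hγ, hLR, hQα⟩ := key
  refine ⟨α, γ, hQα, ?_, hLR⟩
  -- Step 3: `e ∈ N` acting as `L_{α⁻¹}`
  have hxy : ∀ v : V, φ (ρ (x * y) v) = qi * qj * φ v := fun v => by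
    rw [hmul, hC.mx, hC.my, mul_assoc]
  have he : ∃ e ∈ N, ∃ α' : H, α' * α = 1 ∧ ∀ v, φ (ρ e v) = α' * φ v := by
    rcases hQα with h | h | h | h | h | h | h | h
    · exact ⟨1, N.one_mem, 1, by rw [h, mul_one], fun v => by rw [hone, one_mul]⟩
    · exact ⟨z, hzN, -1, by rw [h, neg_mul_neg, mul_one],
        fun v => by rw [hzneg, map_neg, neg_mul, one_mul]⟩
    · exact ⟨z * x, N.mul_mem hzN hC.xN, -qi, by rw [h]; exact xn_qi_inv,
        fun v => by rw [hmul, hzneg, map_neg, hC.mx, neg_mul]⟩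
    · exact ⟨x, hC.xN, qi, by rw [h, mul_neg, ← neg_mul]; exact xn_qi_inv,
        fun v => hC.mx v⟩
    · exact ⟨z * y, N.mul_mem hzN hC.yN, -qj, by rw [h]; exact xn_qj_inv,
        fun v => by rw [hmul, hzneg, map_neg, hC.my, neg_mul]⟩
    · exact ⟨y, hC.yN, qj, by rw [h, mul_neg, ← neg_mul]; exact xn_qj_inv,
        fun v => hC.my v⟩
    · exact ⟨z * (x * y), N.mul_mem hzN (N.mul_mem hC.xN hC.yN), -(qi * qj),
        by rw [h, xn_qk]; exact xn_qk_inv,
        fun v => by rw [hmul, hzneg, map_neg, hxy, neg_mul]⟩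
    · exact ⟨x * y, N.mul_mem hC.xN hC.yN, qi * qj,
        by rw [h, xn_qk, mul_neg, ← neg_mul]; exact xn_qk_inv, hxy⟩
  obtain ⟨e, heN, α', hα', heL⟩ := he
  have hn' : e * n ∈ N := N.mul_mem heN hn
  have hn'R : ∀ v : V, φ (ρ (e * n) v) = φ v * γ := fun v => by
    rw [hmul, heL, hLR, ← mul_assoc, ← mul_assoc, hα', one_mul]
  -- squares
  have sq : ∀ m ∈ N, ∀ δ : H, (∀ v, φ (ρ m v) = φ v * δ) → δ * δ = 1 ∨ δ * δ = -1 := by
    intro m hm δ hδ
    have h2 : ∀ v, φ (ρ (m * m) v) = φ v * (δ * δ) := fun v => by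
      rw [hmul, hδ, hδ, mul_assoc]
    have h3 := h2 (φ.symm 1)
    rw [LinearEquiv.apply_symm_apply, one_mul] at h3
    rcases hsq m hm with h | h
    · left
      rw [h, hone, LinearEquiv.apply_symm_apply] at h3
      exact h3.symm
    · right
      rw [h, hzneg, map_neg, LinearEquiv.apply_symm_apply] at h3
      exact h3.symm
  rcases sq (e * n) hn' γ hn'R with hγγ | hγγ
  · by_cases hγ1 : γ = 1
    · exact Or.inl hγ1
    by_cases hγm1 : γ = -1
    · exact Or.inr (Or.inl hγm1)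
    exfalso
    obtain ⟨β1, β2, hb, hb1, hb2, hb2ne⟩ := hB
    have hbinv : ∀ v, φ (ρ b⁻¹ v) = β1 * β1 * φ v * (β2 * β2) := by
      intro v
      have h := hb (ρ b⁻¹ v)
      rw [← hmul, mul_inv_cancel, hone] at h
      rw [h]
      calc φ (ρ b⁻¹ v) = (β1 * β1 * β1) * φ (ρ b⁻¹ v) * (β2 * β2 * β2) := by
            rw [hb1, hb2, one_mul, mul_one]
        _ = β1 * β1 * (β1 * φ (ρ b⁻¹ v) * β2) * (β2 * β2) := by simp only [mul_assoc]
    have hm1 : b * (e * n) * b⁻¹ ∈ N := hC.Nnormal.conj_mem _ hn' b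
    have hm1R : ∀ v, φ (ρ (b * (e * n) * b⁻¹) v) = φ v * (β2 * β2 * γ * β2) := by
      intro v
      rw [hmul, hmul, hb, hn'R, hbinv]
      calc β1 * (β1 * β1 * φ v * (β2 * β2) * γ) * β2
          = (β1 * β1 * β1) * φ v * (β2 * β2 * γ * β2) := by simp only [mul_assoc]
        _ = φ v * (β2 * β2 * γ * β2) := by rw [hb1, one_mul]
    have hm2 : (e * n) * (b * (e * n) * b⁻¹) ∈ N := N.mul_mem hn' hm1
    have hm2R : ∀ v, φ (ρ ((e * n) * (b * (e * n) * b⁻¹)) v) =
        φ v * (β2 * β2 * γ * β2 * γ) := by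
      intro v
      rw [hmul, hn'R, hm1R]
      simp only [mul_assoc]
    have hmix := hFin.mix₁ γ β2 hγγ hγ1 hγm1 hb2 hb2ne
    rcases sq _ hm2 _ hm2R with h | h
    · exact hmix.1 h
    · exact hmix.2 h
  · rcases hFin.sq_neg_one γ hγγ with h | h | h | h | h | h
    · exact Or.inr (Or.inr (Or.inl h))
    · exact Or.inr (Or.inr (Or.inr (Or.inl h)))
    · exact Or.inr (Or.inr (Or.inr (Or.inr (Or.inl h))))
    · exact Or.inr (Or.inr (Or.inr (Or.inr (Or.inr (Or.inl h)))))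
    · exact Or.inr (Or.inr (Or.inr (Or.inr (Or.inr (Or.inr (Or.inl h))))))
    · exact Or.inr (Or.inr (Or.inr (Or.inr (Or.inr (Or.inr (Or.inr h))))))

end Cfsg.Agent.Lib.Helper24.S4415
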